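import Mathlib
import Cfsg.Agent.S5352
import Cfsg.Agent.S1618
import Cfsg.Agent.Lib.Helper55.Fischer

/-!
# From "no solvable normal subgroup + perfect derived group" to "simple derived group"

Helper library (helper55) for Fischer's theory of 3-transposition groups: under the
hypotheses of Fischer's theorem the derived group is a non-abelian simple group.
-/

set_option autoImplicit false

namespace Cfsg.Agent.Lib.Helper55.FischerBridge

open Cfsg.Agent.Lib.Helper55

variable {G : Type*} [Group G]

theorem perfect_le_derivedSeries (H : Subgroup G) (hH : ⁅H, H⁆ = H) (n : ℕ) :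
    H ≤ derivedSeries G n := by
  induction n with
  | zero => exact le_top
  | succ n ih =>
    rw [derivedSeries_succ]
    calc H = ⁅H, H⁆ := hH.symm
      _ ≤ ⁅derivedSeries G n, derivedSeries G n⁆ := Subgroup.commutator_mono ih ih

/-- A perfect subgroup of a solvable group is trivial. -/
theorem perfect_eq_bot_of_solvable [hG : Group.IsSolvable G] (H : Subgroup G)
    (hH : ⁅H, H⁆ = H) : H = ⊥ := by
  obtain ⟨n, hn⟩ := hG.solvable
  exact le_bot_iff.mp (hn ▸ perfect_le_derivedSeries H hH n)

theorem pCore_eq_bot [Finite G]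
    (hsol : ∀ N : Subgroup G, N.Normal → Group.IsSolvable ↥N → N = ⊥) (p : ℕ)
    [Fact p.Prime] : Cfsg.pCore p G = ⊥ := by
  unfold Cfsg.pCore
  rw [eq_bot_iff]
  apply sSup_le
  rintro N ⟨hN, hp⟩
  have hnil : Group.IsNilpotent N := hp.isNilpotent
  rw [hsol N hN inferInstance]

theorem isSolvable_of_commutator (hs : Group.IsSolvable ↥(commutator G)) :
    Group.IsSolvable G :=
  Group.isSolvable_of_ker_le_range (commutator G).subtype (Abelianization.of (G := G))
    (by rw [Abelianization.ker_of, Subgroup.range_subtype])

/-- Under the hypotheses of Fischer's theorem, the derived group is non-abelian simple. -/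
theorem bridge [Finite G]
    (hsol : ∀ N : Subgroup G, N.Normal → Group.IsSolvable ↥N → N = ⊥)
    (hperf : ⁅commutator G, commutator G⁆ = commutator G) {D : Set G}
    (hD : Cfsg.IsThreeTranspositionClass D) :
    IsSimpleGroup (commutator G) ∧ ∃ x y : commutator G, x * y ≠ y * x := by
  have hTT := Fischer.TT.of_class hD
  obtain ⟨⟨hord, h23⟩, ⟨d₀, hd₀, hDeq⟩, hgen⟩ := id hD
  have hd₀1 : d₀ ≠ 1 := by
    intro h
    have := hord d₀ hd₀
    rw [h, orderOf_one] at this
    exact absurd this (by norm_num)
  have hGns : ¬ Group.IsSolvable G := by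
    intro hs
    have h1 : (⊤ : Subgroup G) = ⊥ := hsol ⊤ inferInstance inferInstance
    have : d₀ ∈ (⊥ : Subgroup G) := h1 ▸ Subgroup.mem_top d₀
    exact hd₀1 (Subgroup.mem_bot.mp this)
  have hnonab : ∃ x y : commutator G, x * y ≠ y * x := by
    by_contra hcon
    push Not at hcon
    exact hGns (isSolvable_of_commutator (Group.isSolvable_of_comm hcon))
  refine ⟨?_, hnonab⟩
  have hD2 : ∃ a ∈ D, ∃ b ∈ D, a ≠ b := by
    obtain ⟨c, hc, hnc⟩ := Fischer.exists_noncommuting hTT hgen hnonab hd₀
    refine ⟨d₀, hd₀, c, hc, ?_⟩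
    rintro rfl
    exact hnc (Commute.refl _)
  have h2 : Cfsg.pCore 2 G ≤ Subgroup.center G := by
    rw [pCore_eq_bot hsol 2]; exact bot_le
  have h3 : Cfsg.pCore 3 G ≤ Subgroup.center G := by
    rw [pCore_eq_bot hsol 3]; exact bot_le
  obtain ⟨L, hLn, ⟨hLperf, hLsimp⟩, -, hL⟩ := Cfsg.Agent.S5352.result hD hD2 h2 h3
  have hZ : Subgroup.center ↥L = ⊥ := by
    have hn : ((Subgroup.center ↥L).map L.subtype).Normal :=
      ConjAct.normal_of_characteristic_of_normal
    have hs : Group.IsSolvable ↥((Subgroup.center ↥L).map L.subtype) := by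
      have e := (Subgroup.center ↥L).equivMapOfInjective L.subtype L.subtype_injective
      have hc : Group.IsSolvable ↥(Subgroup.center ↥L) :=
        Group.isSolvable_of_comm
          (fun a b => Subtype.ext (Subgroup.mem_center_iff.mp b.2 (a : ↥L)))
      exact Group.isSolvable_of_surjective (f := e.toMonoidHom) e.surjective
    have := hsol _ hn hs
    exact (Subgroup.map_eq_bot_iff_of_injective _ L.subtype_injective).mp this
  have hLs : IsSimpleGroup ↥L := by
    have e : ↥L ≃* ↥L ⧸ Subgroup.center ↥L :=
      ((QuotientGroup.quotientMulEquivOfEq hZ).trans QuotientGroup.quotientBot).symm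
    exact e.isSimpleGroup
  have hLle : L ≤ commutator G := by
    have h1 : ⁅L, L⁆ = L := Subgroup.isPerfect_iff.mp hLperf
    calc L = ⁅L, L⁆ := h1.symm
      _ ≤ ⁅(⊤ : Subgroup G), ⊤⁆ := Subgroup.commutator_mono le_top le_top
      _ = commutator G := (commutator_def G).symm
  have hle : commutator G ≤ L := by
    by_cases hLtop : L = ⊤
    · rw [hLtop]; exact le_top
    · have hw := hL.resolve_left hLtop
      have hDL : ∀ d ∈ D, d ∉ L := by
        intro d hd hdL
        apply hLtop
        rw [eq_top_iff, ← hgen, Subgroup.closure_le]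
        intro e he
        obtain ⟨g, rfl⟩ := hTT.trans d hd e he
        exact hLn.conj_mem d hdL g
      have hnil : Group.IsNilpotent ↥(commutator (G ⧸ L)) := by
        refine Cfsg.Agent.S1618.result 3 Nat.prime_three (by norm_num)
          (D := (QuotientGroup.mk' L) '' D) ?_ ?_ ?_ ?_
        · rintro _ ⟨d, hd, rfl⟩
          apply orderOf_eq_prime
          · rw [← map_pow, pow_two, hTT.sq d hd, map_one]
          · intro h
            exact hDL d hd ((QuotientGroup.eq_one_iff d).mp h)
        · refine ⟨QuotientGroup.mk' L d₀, ⟨d₀, hd₀, rfl⟩, ?_⟩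
          ext y
          constructor
          · rintro ⟨d, hd, rfl⟩
            obtain ⟨g, rfl⟩ := hTT.trans d₀ hd₀ d hd
            show IsConj (QuotientGroup.mk' L d₀) (QuotientGroup.mk' L (g * d₀ * g⁻¹))
            exact isConj_iff.mpr ⟨QuotientGroup.mk' L g, by simp⟩
          · intro hy
            have hy' : IsConj (QuotientGroup.mk' L d₀) y := hy
            obtain ⟨c, hc⟩ := isConj_iff.mp hy'
            obtain ⟨g, rfl⟩ := QuotientGroup.mk'_surjective L c
            exact ⟨g * d₀ * g⁻¹, hTT.conj d₀ hd₀ g, by rw [← hc]; simp⟩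
        · rw [← MonoidHom.map_closure, hgen, ← MonoidHom.range_eq_map,
            MonoidHom.range_eq_top]
          exact QuotientGroup.mk'_surjective L
        · rintro _ ⟨a, ha, rfl⟩ _ ⟨b, hb, rfl⟩ hne
          rcases h23 a ha b hb with h | h
          · exfalso
            apply hne
            have hab : a * b * a⁻¹ * b⁻¹ = 1 := by
              rw [hTT.inv_eq ha, hTT.inv_eq hb]
              rw [pow_two] at h
              rw [← h]; group
            have := hw a ha b hb (by rw [hab]; exact L.one_mem)
            exact (QuotientGroup.eq).mpr this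
          · have hdvd : orderOf (QuotientGroup.mk' L a * QuotientGroup.mk' L b) ∣ 3 := by
              apply orderOf_dvd_of_pow_eq_one
              rw [← map_mul, ← map_pow, h, map_one]
            rcases (Nat.dvd_prime Nat.prime_three).mp hdvd with h1 | h3
            · exact ⟨0, by rw [h1, pow_zero]⟩
            · exact ⟨1, by rw [h3, pow_one]⟩
      have hQs : Group.IsSolvable (G ⧸ L) := isSolvable_of_commutator inferInstance
      have hmap : (commutator G).map (QuotientGroup.mk' L) = ⊥ := by
        apply perfect_eq_bot_of_solvable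
        rw [← Subgroup.map_commutator, hperf]
      have := (Subgroup.map_eq_bot_iff _).mp hmap
      rwa [QuotientGroup.ker_mk'] at this
  have heq : commutator G = L := le_antisymm hle hLle
  exact heq ▸ hLs

end Cfsg.Agent.Lib.Helper55.FischerBridge
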